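import Mathlib

/-!
# Elements of prime power order in a cyclic subgroup

`mem_of_primePow`: a subgroup containing all powers of `g` which have prime power order contains `g`.
-/

set_option autoImplicit false

namespace Cfsg.Agent.H493

/-- A subgroup `C` containing all powers of `g` of prime power order contains `g`
(`g` an element of finite order). -/
theorem mem_of_primePow {G : Type*} [Group G] (C : Subgroup G) (n : ℕ) :
    ∀ g : G, orderOf g = n → 0 < n →
      (∀ k q b : ℕ, q.Prime → orderOf (g ^ k) = q ^ b → g ^ k ∈ C) → g ∈ C := by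
  induction n using Nat.recOnPosPrimePosCoprime with
  | prime_pow q b hq hb =>
    intro g hg _ h
    have := h 1 q b hq (by rw [pow_one, hg])
    rwa [pow_one] at this
  | zero => intro g _ h0; exact absurd h0 (lt_irrefl _)
  | one =>
    intro g hg _ _
    rw [orderOf_eq_one_iff.mp hg]
    exact C.one_mem
  | coprime a b ha hb hab iha ihb =>
    intro g hg _ h
    have h1 : orderOf (g ^ b) = a := by
      rw [orderOf_pow_of_dvd (by omega) (by rw [hg]; exact Dvd.intro_left a rfl), hg,
        Nat.mul_div_cancel _ (by omega)]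
    have h2 : orderOf (g ^ a) = b := by
      rw [orderOf_pow_of_dvd (by omega) (by rw [hg]; exact Dvd.intro b rfl), hg,
        Nat.mul_div_cancel_left _ (by omega)]
    have m1 : g ^ b ∈ C := iha (g ^ b) h1 (by omega) (fun k q c hq hk => by
      rw [← pow_mul] at hk ⊢; exact h _ q c hq hk)
    have m2 : g ^ a ∈ C := ihb (g ^ a) h2 (by omega) (fun k q c hq hk => by
      rw [← pow_mul] at hk ⊢; exact h _ q c hq hk)
    have e : (a : ℤ) * Nat.gcdA a b + b * Nat.gcdB a b = 1 := by
      rw [← Nat.gcd_eq_gcd_ab, hab.gcd_eq_one]; rfl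
    have e2 : g = (g ^ a) ^ (Nat.gcdA a b) * (g ^ b) ^ (Nat.gcdB a b) := by
      rw [← zpow_natCast g a, ← zpow_natCast g b, ← zpow_mul, ← zpow_mul, ← zpow_add, e, zpow_one]
    rw [e2]
    exact C.mul_mem (C.zpow_mem m2 _) (C.zpow_mem m1 _)

end Cfsg.Agent.H493
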